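import Cfsg.Agent.Lib.Gold.ST1
import Cfsg.Agent.Lib.Lin.SL2Unip
import Cfsg.Agent.Lib.Lin.SL2Sylow2
import Cfsg.Agent.Lib.Lin.SLnCard

/-! Central products of two groups `SL₂(q)`, `q` odd. -/

set_option autoImplicit false
set_option linter.unusedSectionVars false
set_option maxHeartbeats 400000

namespace CA.H13SK
open Subgroup Cfsg CA.BG CA.GW CA.SL2Basic CA.SL2Torus CA.SL2Unip
open scoped commutatorElement MatrixGroups
variable {G : Type*} [Group G] [Finite G] {L K M N : Subgroup G} {a b c j n x y : G}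

structure SK (L : Subgroup G) (j : G) : Prop where
  j2 : orderOf j = 2
  inv : ∀ x ∈ L, x * x = 1 → x ∈ zpowers j
  ex : ∃ a ∈ L, a * a = j
  conj : ∀ a ∈ L, ∀ b ∈ L, a * a = j → b * b = j → ∃ g ∈ L, g * a * g⁻¹ = b
  tor : ∀ a ∈ L, a * a = j → ∃ y ∈ L, y * y = j ∧ ∀ c ∈ L, c * a = a * c → y * c * y⁻¹ = c⁻¹
  ind : ∀ M N, M ≤ L → N ≤ L → L ≤ 𝓝(M) → L ≤ 𝓝(N) → L ≤ M ⊔ N → ⁅M, N⁆ ≤ zpowers j → M ≤ zpowers j ∨ N ≤ zpowers j

section
variable {F : Type*} [Field F] [Finite F] (h2 : (2 : F) ≠ 0)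
include h2

theorem ss_of {a : SL(2, F)} (h : a * a = -1) : SS a ∧ a.1.trace = 0 := by
  have n : Mat2.NS a.1 := (NS_iff_ne a).2 ⟨fun e => neg_one_ne_one h2 (by rw [← h, e, mul_one]),
    fun e => neg_one_ne_one h2 (by rw [← h, e]; simp)⟩
  have t := (mul_self_eq_neg_one_iff a n).1 h
  exact ⟨by_contra fun e => ((not_SS_iff a).1 e).elim (fun e => h2 (e ▸ t)) fun e => h2 (neg_eq_zero.1 (e ▸ t)), t⟩

theorem sk_top : SK (⊤ : Subgroup SL(2, F)) (-1) := by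
  obtain ⟨p, _⟩ := CharP.exists F
  have hp := Fact.mk (CharP.char_is_prime F p)
  have mz : ∀ x : SL(2, F), x ∈ zpowers (-1 : SL(2, F)) ↔ x = 1 ∨ x = -1 := fun x => mem_zp (by simp)
  have key : ∀ M N : Subgroup SL(2, F), ⊤ ≤ 𝓝(M) → p ∣ ♯M → ⁅M, N⁆ ≤ zpowers (-1) → N ≤ zpowers (-1) := fun M N m1 m2 m3 n hn => by
    obtain ⟨g, hg, o⟩ := exists_orderOf_eq hp.1 m2
    obtain ⟨x, b, e⟩ := exists_conj_u (trace_of_pow_char p (g := g) (k := 1) (by rw [pow_one, ← o, pow_orderOf_eq_one]))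
    have b0 : b ≠ 0 := fun e' => hp.1.ne_one (by rw [← o, ← ord_conj x, e, e', u_zero, orderOf_one])
    have k : ∀ w : SL(2, F), w⁻¹ * n * w ∈ U F ∨ -(w⁻¹ * n * w) ∈ U F := fun w => (mem_C_u b0).1 (mem_C_iff'.2 (by
      have m := conj_mem_of_norm m1 (mem_top w) (e ▸ conj_mem_of_norm m1 (mem_top x) hg)
      have := (mz _).1 (m3 (commutator_mem_commutator (M.inv_mem m) hn))
      rw [commutatorElement_def, inv_inv, show (w * u b * w⁻¹)⁻¹ * n * (w * u b * w⁻¹) * n⁻¹ =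
        w * ((u b)⁻¹ * (w⁻¹ * n * w * u b * (w⁻¹ * n * w)⁻¹)) * w⁻¹ by group, mul_inv_eq_iff_eq_mul, mul_inv_eq_iff_eq_mul,
        one_mul, neg_one_mul, mul_eq_left, ← mul_neg_one w, mul_right_inj, inv_mul_eq_one, inv_mul_eq_iff_eq_mul] at this
      refine (this.resolve_right fun e => ?_).symm
      have := trace_conj (w⁻¹ * n * w) (u b)
      rw [e, mul_neg_one, trace_neg', trace_u] at this
      exact mul_ne_zero h2 h2 (by linear_combination -this)))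
    obtain ⟨α, β, γ, δ, hd, rfl⟩ := sl_ex4 n
    have k1 := k 1
    have k2 := k w0
    simp only [inv_one, one_mul, mul_one, neg_mk2, mem_U_iff, w0, mk2_inv, mk2_mul] at k1 k2
    rw [mz, one_eq_mk2, neg_mk2, mk2_eq_iff, mk2_eq_iff]
    simp [SL2Embed.mk2] at k1 k2
    grind
  refine ⟨orderOf_neg_one h2, fun x _ h => (mz x).2 ((em (x = 1)).imp_right fun e => eq_neg_one_of_mul_self h2 x e h), ?_,
    fun a _ b _ ha hb => ?_, fun a _ ha => ?_, fun M N _ _ m1 n1 e c => ?_⟩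
  · obtain ⟨i, -, h, -⟩ := SL2Sylow2.exists_quat_elements (F := F) p
    exact ⟨i, trivial, pow_two i ▸ h⟩
  · obtain ⟨g, hg⟩ := isConj_iff.1 ((ss_of h2 ha).1.isConj ((ss_of h2 ha).2.trans (ss_of h2 hb).2.symm))
    exact ⟨g, trivial, hg⟩
  · obtain ⟨y, hy⟩ := (ss_of h2 ha).1.exists_inverter
    exact ⟨y, trivial, (ss_of h2 ha).1.inverter_sq hy, fun c _ hc => inverter_inv (ss_of h2 ha).1.ns hy (mem_C_iff.2 hc)⟩
  · have : p ∣ ♯M * ♯N := ((isPGroup_U p (F := F)).card_eq_or_dvd.resolve_left (by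
      rw [card_U]; exact (Finite.one_lt_card (α := F)).ne')).trans
      ((card_dvd (le_top.trans e)).trans (card_sup_dvd (le_top.trans n1)))
    exact ((Nat.Prime.dvd_mul hp.1).1 this).elim (fun h => .inr (key M N m1 h c)) fun h => .inl (key N M n1 h (comm_symm M N ▸ c))

end

theorem SK.map {H : Type*} [Group H] [Finite H] {j : H} (h : SK ⊤ j) (e : H ≃* L) : SK L (e j) := by
  let f := L.subtype.comp e.toMonoidHom
  have fi : Function.Injective f := L.subtype_injective.comp e.injective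
  have fs : ∀ x ∈ L, ∃ y, f y = x := fun x hx => ⟨e.symm ⟨x, hx⟩, by simp [f]⟩
  have fm : ∀ y, f y ∈ L := fun y => (e y).2
  change SK L (f j)
  have mz : ∀ x, f x ∈ zpowers (f j) ↔ x ∈ zpowers j := fun x => by rw [← MonoidHom.map_zpowers, mem_map_iff_mem fi]
  have nm : ∀ M : Subgroup G, L ≤ 𝓝(M) → ⊤ ≤ 𝓝(M.comap f) := fun M hM g _ => mem_norm_of_cj_le fun x hx => by
    obtain ⟨y, hy, rfl⟩ := mem_cj'.1 hx
    rw [mem_comap, map_mul, map_mul, map_inv]; exact conj_mem_of_norm hM (fm g) hy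
  refine ⟨by rw [orderOf_injective f fi, h.j2], fun x hx e => ?_, ?_, fun a ha b hb e1 e2 => ?_, fun a ha e1 => ?_,
    fun M N m0 n0 m1 n1 e c => ?_⟩
  · obtain ⟨x, rfl⟩ := fs x hx
    exact (mz x).2 (h.inv x trivial (fi (by rw [map_mul, e, map_one])))
  · obtain ⟨a, -, e⟩ := h.ex
    exact ⟨f a, fm a, by rw [← map_mul, e]⟩
  · obtain ⟨a, rfl⟩ := fs a ha
    obtain ⟨b, rfl⟩ := fs b hb
    obtain ⟨g, -, rfl⟩ := h.conj a trivial b trivial (fi (by rw [map_mul, e1])) (fi (by rw [map_mul, e2]))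
    exact ⟨f g, fm g, by simp⟩
  · obtain ⟨a, rfl⟩ := fs a ha
    obtain ⟨y, -, y1, y2⟩ := h.tor a trivial (fi (by rw [map_mul, e1]))
    refine ⟨f y, fm y, by rw [← map_mul, y1], fun c hc e => ?_⟩
    obtain ⟨c, rfl⟩ := fs c hc
    rw [← map_inv f c, ← y2 c trivial (fi (by rw [map_mul, map_mul, e]))]; simp
  · have k : ∀ M : Subgroup G, M ≤ L → M.comap f ≤ zpowers j → M ≤ zpowers (f j) := fun M h1 h2 x hx => by
      obtain ⟨x, rfl⟩ := fs x (h1 hx)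
      exact (mz x).2 (h2 hx)
    refine (h.ind (M.comap f) (N.comap f) le_top le_top (nm M m1) (nm N n1) (fun g _ => ?_) (commutator_le.2
      fun a ha b hb => (mz _).1 (by rw [map_commutatorElement]; exact c (commutator_mem_commutator ha hb)))).imp (k M m0) (k N n0)
    obtain ⟨a, ha, b, hb, e⟩ := (mem_sup_norm (m0.trans n1)).1 (e (fm g))
    obtain ⟨a, rfl⟩ := fs a (m0 ha)
    obtain ⟨b, rfl⟩ := fs b (n0 hb)
    exact fi (map_mul f a b ▸ e) ▸ mul_mem (mem_sup_left ha) (mem_sup_right hb)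

theorem sk_of {F : Type*} [Field F] [Fintype F] (hF : Odd (Fintype.card F)) (e : L ≃* SL(2, F)) (hj : orderOf j = 2)
    (h : j ∈ L) : SK L j := by
  have h2 := two_ne_zero_of_odd (F := F) (Nat.card_eq_fintype_card (α := F) ▸ hF)
  have := (sk_top h2).map e.symm
  rwa [← eq_neg_one_of_orderOf h2 (e ⟨j, h⟩) (by rw [e.orderOf_eq, ← orderOf_coe, hj]), e.symm_apply_apply] at this

/-- a central product -/
structure CP (L K : Subgroup G) (j : G) : Prop where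
  l : SK L j
  r : SK K j
  c : L ≤ 𝓒(K)
  i : L ⊓ K = zpowers j

theorem cp_of {F₁ F₂ : Type*} [Field F₁] [Fintype F₁] [Field F₂] [Fintype F₂] (h1 : Odd (Fintype.card F₁))
    (h2 : Odd (Fintype.card F₂)) (e₁ : L ≃* SL(2, F₁)) (e₂ : K ≃* SL(2, F₂)) (hc : ∀ x ∈ L, ∀ y ∈ K, x * y = y * x)
    (hj : orderOf j = 2) (hm : L ⊓ K = zpowers j) : CP L K j :=
  ⟨sk_of h1 e₁ hj (hm.ge (mem_zpowers j)).1, sk_of h2 e₂ hj (hm.ge (mem_zpowers j)).2,
    fun a ha => mem_cent.2 fun b hb => (hc a ha b hb).symm, hm⟩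

theorem SK.jj (h : SK L j) : j * j = 1 := sq_of_ord h.j2

theorem SK.not_le (h : SK L j) : ¬ L ≤ zpowers j := fun e =>
  let ⟨a, ha, e1⟩ := h.ex
  ((mem_zp h.jj).1 (e ha)).elim (fun e => ne_one_of_ord h.j2 (by rw [← e1, e, mul_one]))
    fun e => ne_one_of_ord h.j2 (by rw [← e1, e, h.jj])

namespace CP
variable (h : CP L K j)
include h

theorem symm : CP K L j := ⟨h.r, h.l, cent_symm h.c, inf_comm L K ▸ h.i⟩
theorem comm (ha : a ∈ L) (hb : b ∈ K) : b * a = a * b := mem_cent.1 (h.c ha) b hb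
theorem mem : x ∈ L ⊔ K ↔ ∃ a ∈ L, ∃ b ∈ K, a * b = x := mem_sup_norm (norm_of_cent h.c)
theorem zl : zpowers j ≤ L := h.i.ge.trans inf_le_left
theorem zr : zpowers j ≤ K := h.i.ge.trans inf_le_right

theorem mul (ha : a ∈ L) (hb : b ∈ K) (e : a * b ∈ zpowers j) : a ∈ zpowers j :=
  h.i.le ⟨ha, (mul_mem_cancel_right hb).1 (h.zr e)⟩

theorem sq (ha : a ∈ L) (hb : b ∈ K) : a * b * (a * b) = a * a * (b * b) := by
  rw [mul_assoc a b, ← mul_assoc b, h.comm ha hb]; group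

theorem inv (ha : a ∈ L) (hb : b ∈ K) (e : a * b * (a * b) = 1) : a * b ∈ zpowers j ∨ a * a = j ∧ b * b = j := by
  rw [h.sq ha hb] at e
  rcases (mem_zp h.l.jj).1 (h.mul (L.mul_mem ha ha) (K.mul_mem hb hb) (e ▸ one_mem _)) with e1 | e1
  · exact .inl (mul_mem (h.l.inv a ha e1) (h.r.inv b hb (by rwa [e1, one_mul] at e)))
  · exact .inr ⟨e1, by rw [e1] at e; exact (eq_inv_of_mul_eq_one_right e).trans (inv_of_sq h.l.jj)⟩

theorem not_mem (e : cj n L ≤ K) : n ∉ L ⊔ K := fun hn => h.l.not_le (h.i ▸ le_inf le_rfl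
  (cj_of_mem_norm (sup_le (le_norm_self L) (norm_of_cent h.symm.c) hn) ▸ e))

theorem dich (hn : n ∈ 𝓝(L ⊔ K)) : cj n L ≤ K ∨ cj n K ≤ K := by
  have nL : L ⊔ K ≤ 𝓝(L) := sup_le (le_norm_self L) (norm_of_cent h.symm.c)
  have nK : L ⊔ K ≤ 𝓝(K) := sup_le (norm_of_cent h.c) (le_norm_self K)
  have e := cj_of_mem_norm hn
  have e1 : cj n L ≤ L ⊔ K := (cj_mono n le_sup_left).trans e.le
  have e2 : cj n K ≤ L ⊔ K := (cj_mono n le_sup_right).trans e.le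
  have k : ∀ {A : Subgroup G}, A ≤ L ⊔ K → L ⊓ (A ⊔ K) ≤ zpowers j → A ≤ K := fun hA h1 x hx => by
    obtain ⟨a, ha, b, hb, rfl⟩ := h.mem.1 (hA hx)
    exact mul_mem (h.zr (h1 ⟨ha, (mul_mem_cancel_right (mem_sup_right hb)).1 (mem_sup_left hx)⟩)) hb
  have k2 : ∀ {A : Subgroup G}, L ⊔ K ≤ 𝓝(A) → L ≤ 𝓝(L ⊓ (cj n A ⊔ K)) := fun hA =>
    norm_inf (le_norm_self L) (norm_sup (le_sup_left.trans (e.ge.trans (norm_cj n hA))) (norm_of_cent h.c))
  refine (h.l.ind _ _ inf_le_left inf_le_left (k2 nL) (k2 nK) (fun x hx => ?_) ?_).imp (k e1) (k e2)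
  · obtain ⟨v, hv, w, hw, rfl⟩ := (mem_sup_norm (norm_of_cent (cent_cj n h.c))).1 ((cj_sup n L K).le (e.ge (mem_sup_left hx)))
    obtain ⟨a, ha, b, hb, rfl⟩ := h.mem.1 (e1 hv)
    have a1 : a ∈ L ⊓ (cj n L ⊔ K) := ⟨ha, (mul_mem_cancel_right (mem_sup_right hb)).1 (mem_sup_left hv)⟩
    rw [mul_assoc] at hx ⊢
    exact mul_mem (mem_sup_left a1) (mem_sup_right ⟨(mul_mem_cancel_left ha).1 hx, mul_mem (mem_sup_right hb) (mem_sup_left hw)⟩)
  · refine (le_inf (comm_le_of_le inf_le_left inf_le_left) ((comm_mono inf_le_right inf_le_right).trans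
      ((comm_sup_le (e1.trans nK) (e2.trans nK)).trans ?_))).trans h.i.le
    rw [comm_eq_bot_iff.2 (cent_cj n h.c), bot_sup_eq]

end CP
end CA.H13SK
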